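import Mathlib
import Cfsg.Agent.Lib.Helper41.CS3.GoodDefs
import Cfsg.Agent.Lib.Helper24.CS3.Basics
import Cfsg.Agent.Lib.Helper71.CS3.Basics

/-!
# CS3 (S4284), part GOOD, package [G3]

`C(a) = Sa × N` with `N` abelian  ⟹  `C(a)` is abelian.
-/

set_option autoImplicit false

namespace Cfsg.Agent.Lib.Helper76.CS3

open Cfsg.Agent.Lib.Helper41.CS3 Cfsg.Agent.Lib.Helper81.CS3

universe u

/-- `|Sa ⊔ N : N|` divides `|Sa|` when `Sa` and `N` commute elementwise. -/
theorem relIndex_sup_dvd_card {G : Type u} [Group G] [Finite G] (Sa N : Subgroup G)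
    (h : Comm Sa N) : N.relIndex (Sa ⊔ N) ∣ Nat.card Sa := by
  have hcomm : ∀ (x : Sa) (y : N), Commute (Sa.subtype x) (N.subtype y) :=
    fun x y => h x x.2 y y.2
  have hr := MonoidHom.noncommCoprod_range Sa.subtype N.subtype hcomm
  rw [Subgroup.range_subtype, Subgroup.range_subtype] at hr
  have h1 := Subgroup.card_range_dvd (MonoidHom.noncommCoprod Sa.subtype N.subtype hcomm)
  rw [hr, Nat.card_prod] at h1
  have h2 : N.relIndex (Sa ⊔ N) * Nat.card N = Nat.card (Sa ⊔ N : Subgroup G) := by
    have h3 := Subgroup.relIndex_mul_index (le_sup_right : N ≤ Sa ⊔ N)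
    have h4 := Subgroup.card_mul_index N
    have h5 := Subgroup.card_mul_index (Sa ⊔ N)
    have hpos : 0 < (Sa ⊔ N).index := Nat.pos_of_ne_zero Subgroup.index_ne_zero_of_finite
    apply Nat.eq_of_mul_eq_mul_right hpos
    rw [← h3] at h4
    rw [h5, ← h4]
    ring
  rw [← h2] at h1
  exact Nat.dvd_of_mul_dvd_mul_right Nat.card_pos h1

/-- **[G3]** -/
theorem pkgG3 : PkgG3.{u} := by
  intro G _ _ m n hyp s a Sa N hg hd hN
  have hm1 : 1 < m := hyp.2.1
  have hn1 : 1 < n := hyp.2.2.1
  have hcop : m.Coprime n := hyp.2.2.2.1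
  have hF : Fact s.Prime := ⟨hg.sp⟩
  have hixa : (Cn a).index = m := hg.ixa
  have hsn : s.Coprime n := Nat.Coprime.coprime_dvd_left hg.sm hcop
  have hSa : Sa ≤ Cn a := by rw [← hd.sup]; exact le_sup_left
  have hNa : N ≤ Cn a := by rw [← hd.sup]; exact le_sup_right
  -- `|C(a) : N|` is a power of `s`
  obtain ⟨k, hk⟩ := (IsPGroup.iff_card (p := s) (G := Sa)).mp hd.pS
  have hr : N.relIndex (Cn a) ∣ s ^ k := by
    rw [← hk, ← hd.sup]
    exact relIndex_sup_dvd_card Sa N hd.comm
  have hcopr : ∀ d : ℕ, d ∣ N.relIndex (Cn a) → d ∣ n → d = 1 := by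
    intro d h1 h2
    have h3 : d ∣ Nat.gcd (s ^ k) n := Nat.dvd_gcd (h1.trans hr) h2
    rw [Nat.Coprime.gcd_eq_one (Nat.Coprime.pow_left k hsn)] at h3
    exact Nat.dvd_one.mp h3
  -- `N` is not central
  have hNc : ¬ N ≤ Subgroup.center G := by
    intro hle
    obtain ⟨x, hx⟩ := Cfsg.Agent.Lib.Helper71.CS3.exists_idx_mn hyp
    have hNx : N ≤ Cn x := by
      intro y hy
      rw [Subgroup.mem_centralizer_iff]
      intro h hh
      rw [Set.mem_singleton_iff] at hh
      subst hh
      exact ((Subgroup.mem_center_iff.mp (hle hy)) h)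
    have h1 : (Cn x).index ∣ N.index := Subgroup.index_dvd_of_le hNx
    rw [hx, ← Subgroup.relIndex_mul_index hNa, hixa, mul_comm m n] at h1
    have h2 : n ∣ N.relIndex (Cn a) := Nat.dvd_of_mul_dvd_mul_right (by omega) h1
    have := hcopr n h2 dvd_rfl
    omega
  obtain ⟨v, hvN, hvc⟩ : ∃ v ∈ N, v ∉ Subgroup.center G := by
    by_contra hcon
    apply hNc
    intro y hy
    by_contra hyc
    exact hcon ⟨y, hy, hyc⟩
  -- `C(a) ≤ C(v)`
  have hav : Cn a ≤ Cn v := by
    rw [← hd.sup]
    apply sup_le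
    · intro x hx
      rw [Subgroup.mem_centralizer_iff]
      intro h hh
      rw [Set.mem_singleton_iff] at hh
      subst hh
      exact (hd.comm x hx h hvN).symm
    · intro x hx
      rw [Subgroup.mem_centralizer_iff]
      intro h hh
      rw [Set.mem_singleton_iff] at hh
      subst hh
      exact hN h hvN x hx
  have hixv : ix v = m := by
    have h1 : (Cn v).index ∣ (Cn a).index := Subgroup.index_dvd_of_le hav
    rw [hixa] at h1
    rcases Cfsg.Agent.Lib.Helper71.CS3.idx_cases hyp v with h | h | h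
    · exact absurd ((Cfsg.Agent.Lib.Helper71.CS3.idx_eq_one_iff v).mp h) hvc
    · exact h
    · rw [h] at h1
      have h2 : m * n ∣ m * 1 := by rwa [mul_one]
      have h3 : n ∣ 1 := Nat.dvd_of_mul_dvd_mul_left (by omega) h2
      have := Nat.dvd_one.mp h3
      omega
  have hEq : Cn v = Cn a := by
    apply le_antisymm _ hav
    have h1 := Subgroup.relIndex_mul_index hav
    have hixv' : (Cn v).index = m := hixv
    rw [hixv', hixa] at h1
    have h2 : (Cn a).relIndex (Cn v) = 1 :=
      Nat.eq_of_mul_eq_mul_right (by omega : 0 < m) (h1.trans (one_mul m).symm)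
    exact Subgroup.relIndex_eq_one.mp h2
  -- the order of `v` is prime to `s`
  have hvo : (orderOf v).Coprime s := by
    have h1 : orderOf v ∣ Nat.card N := by
      have h2 := orderOf_dvd_natCard (⟨v, hvN⟩ : N)
      rwa [Subgroup.orderOf_mk] at h2
    exact Nat.Coprime.coprime_dvd_left h1 hd.cop
  -- `Sa` is central in `C(a)`
  have hSc : ∀ u ∈ Sa, Cn a ≤ Cn u := by
    intro u hu
    obtain ⟨j, hj⟩ := (IsPGroup.iff_orderOf.mp hd.pS) ⟨u, hu⟩
    rw [Subgroup.orderOf_mk] at hj
    have hc : Commute v u := (hd.comm u hu v hvN).symm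
    have hco : (orderOf v).Coprime (orderOf u) := by
      rw [hj]
      exact Nat.Coprime.pow_right j hvo
    have h1 := Cfsg.Agent.Lib.Helper24.CS3.relIndex_of_coprime hyp v u hixv hc hco
    have h2 : (Cn u).relIndex (Cn a) ∣ n := by
      have h3 : (Cn u).relIndex (Cn a) = (Cn u).relIndex (Cn v) := by rw [hEq]
      rcases h1 with h1 | h1
      · rw [h3, h1]
        exact one_dvd n
      · rw [h3, h1]
    have hNu : N ≤ Cn u := by
      intro x hx
      rw [Subgroup.mem_centralizer_iff]
      intro h hh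
      rw [Set.mem_singleton_iff] at hh
      subst hh
      exact hd.comm h hu x hx
    have h4 : (Cn u).relIndex (Cn a) ∣ N.relIndex (Cn a) := Subgroup.relIndex_dvd_of_le_left _ hNu
    have h5 := hcopr _ h4 h2
    exact Subgroup.relIndex_eq_one.mp h5
  -- conclusion
  have hcen : Cn a ≤ Subgroup.centralizer (Cn a : Set G) := by
    rw [← hd.sup]
    apply sup_le
    · intro u hu
      rw [Subgroup.mem_centralizer_iff]
      intro h hh
      rw [hd.sup] at hh
      have h1 := hSc u hu hh
      rw [Subgroup.mem_centralizer_iff] at h1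
      exact (h1 u rfl).symm
    · intro β hβ
      rw [Subgroup.mem_centralizer_iff]
      intro h hh
      have h1 : Sa ⊔ N ≤ Cn β := by
        apply sup_le
        · intro x hx
          rw [Subgroup.mem_centralizer_iff]
          intro h' hh'
          rw [Set.mem_singleton_iff] at hh'
          subst hh'
          exact (hd.comm x hx h' hβ).symm
        · intro x hx
          rw [Subgroup.mem_centralizer_iff]
          intro h' hh'
          rw [Set.mem_singleton_iff] at hh'
          subst hh'
          exact hN h' hβ x hx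
      have h2 := h1 hh
      rw [Subgroup.mem_centralizer_iff] at h2
      exact (h2 β rfl).symm
  intro x hx y hy
  have h1 := hcen hy
  rw [Subgroup.mem_centralizer_iff] at h1
  exact h1 x hx

end Cfsg.Agent.Lib.Helper76.CS3
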